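import Cfsg.Agent.H693.Sch.Value
import Cfsg.Agent.H995.IMBRow

/-!
# The constituents of the permutation character of the Baby Monster on its transpositions are rational (helper693)

* `rat_b` : the Baby Monster has RATIONAL-valued irreducible characters of the degrees
  `96255, 9458750, 4275362520, 9287037474`.
-/

set_option autoImplicit false

namespace Cfsg.Agent.H693.Sch.Baby

open Cfsg Cfsg.Agent.BabyM.Inst Cfsg.Agent.H995.BSch Cfsg.Agent.H995.BSchVal Cfsg.Agent.H816.IMEig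
  Cfsg.Agent.H816.IMEig.Col Cfsg.Agent.Characters.Core Cfsg.Agent.H995.IMB

universe u

theorem rational_of {θ : ℂ} {ω : Fin 5 → ℂ} (hE : Eig (1 : Fin 5) 0 t θ ω) (hω : ∀ u, ∃ r : ℚ, ω u = (r : ℂ)) {f : ℕ}
    (hf : (f : ℂ) * ∑ u, ((∑ w, t u w : ℕ) : ℂ) * ω u ^ 2 = 13571955000) :
    ∃ χ : M.G → ℂ, IsIrrCharacter M.G χ ∧ χ 1 = (f : ℂ) ∧ ∀ g, ∃ r : ℚ, χ g = (r : ℂ) := by
  have : Finite M.G := BabyM.Instance.all.finite_G
  obtain ⟨z₀, h1, h2⟩ := exists_z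
  refine Sch.exists_rational (sch.isCol BabyM.Instance.all BabyM.Instance.tr) (x₀ := QuotientGroup.mk 1) (z₀ := z₀)
    (t := t) (θ := θ) (ω := ω) h2 (by rw [h1]; exact hE) hω ?_
  rw [card_X BabyM.Instance.all BabyM.Instance.tr, hf]
  norm_num

theorem w0_rat (u : Fin 5) : ∃ r : ℚ, H995.IMB.w0 u = (r : ℂ) :=
  ⟨(![1, 23/399, -7/228, 13/2128, -1/798] : Fin 5 → ℚ) u, by fin_cases u <;> simp [H995.IMB.w0]⟩

theorem w1_rat (u : Fin 5) : ∃ r : ℚ, H995.IMB.w1 u = (r : ℂ) :=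
  ⟨(![1, 29/2261, 7/1216, 61/1157632, -1/36176] : Fin 5 → ℚ) u, by fin_cases u <;> simp [H995.IMB.w1]⟩

theorem w2_rat (u : Fin 5) : ∃ r : ℚ, H995.IMB.w2 u = (r : ℂ) :=
  ⟨(![1, 43/88179, -7/40128, -31/2315264, 47/15519504] : Fin 5 → ℚ) u, by fin_cases u <;> simp [H995.IMB.w2]⟩

theorem w3_rat (u : Fin 5) : ∃ r : ℚ, H995.IMB.w3 u = (r : ℂ) :=
  ⟨(![1, -1/4199, 1/13376, 1/165376, -1/739024] : Fin 5 → ℚ) u, by fin_cases u <;> simp [H995.IMB.w3]⟩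

theorem rat0 : ∃ χ : M.G → ℂ, IsIrrCharacter M.G χ ∧ χ 1 = ((96255 : ℕ) : ℂ) ∧ ∀ g, ∃ r : ℚ, χ g = (r : ℂ) := by
  refine rational_of (θ := 228735) (ω := H995.IMB.w0) eig0 w0_rat ?_
  simp only [Fin.sum_univ_five]
  simp [t, H995.IMB.w0]
  norm_num

theorem rat1 : ∃ χ : M.G → ℂ, IsIrrCharacter M.G χ ∧ χ 1 = ((9458750 : ℕ) : ℂ) ∧ ∀ g, ∃ r : ℚ, χ g = (r : ℂ) := by
  refine rational_of (θ := 50895) (ω := H995.IMB.w1) eig1 w1_rat ?_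
  simp only [Fin.sum_univ_five]
  simp [t, H995.IMB.w1]
  norm_num

theorem rat2 : ∃ χ : M.G → ℂ, IsIrrCharacter M.G χ ∧ χ 1 = ((4275362520 : ℕ) : ℂ) ∧ ∀ g, ∃ r : ℚ, χ g = (r : ℂ) := by
  refine rational_of (θ := 1935) (ω := H995.IMB.w2) eig2 w2_rat ?_
  simp only [Fin.sum_univ_five]
  simp [t, H995.IMB.w2]
  norm_num

theorem rat3 : ∃ χ : M.G → ℂ, IsIrrCharacter M.G χ ∧ χ 1 = ((9287037474 : ℕ) : ℂ) ∧ ∀ g, ∃ r : ℚ, χ g = (r : ℂ) := by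
  refine rational_of (θ := -945) (ω := H995.IMB.w3) eig3 w3_rat ?_
  simp only [Fin.sum_univ_five]
  simp [t, H995.IMB.w3]
  norm_num

theorem rat_model {d : ℕ} (hd : d ∈ ds) :
    ∃ χ : M.G → ℂ, IsIrrCharacter M.G χ ∧ χ 1 = (d : ℂ) ∧ ∀ g, ∃ r : ℚ, χ g = (r : ℂ) := by
  unfold ds at hd
  simp only [List.mem_cons, List.not_mem_nil, or_false] at hd
  rcases hd with rfl | rfl | rfl | rfl
  · exact rat0
  · exact rat1
  · exact rat2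
  · exact rat3

/-- **Rational-valued irreducible characters of the Baby Monster.** -/
theorem rat_b {S : Type u} [Group S] (h : Spor.IsoB S) {d : ℕ} (hd : d ∈ ds) :
    ∃ χ : IrrCharacter S, (χ : S → ℂ) 1 = (d : ℂ) ∧ charDegree (χ : S → ℂ) = d ∧
      ∀ g : S, ∃ q : ℚ, (χ : S → ℂ) g = (q : ℂ) := by
  obtain ⟨e⟩ := h
  obtain ⟨χ, hχ, h1, h2⟩ := rat_model hd
  let f : S ≃* M.G := e.trans Cfsg.Agent.BM.KHAll.iso
  have h3 : (χ ∘ f.toMonoidHom) 1 = (d : ℂ) := by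
    rw [Function.comp_apply, map_one, h1]
  exact ⟨⟨χ ∘ f.toMonoidHom, isIrr_comp f.toMonoidHom f.surjective hχ⟩, h3,
    Cfsg.Agent.Blocks.Basic.charDegree_of_eq h3, fun g => h2 _⟩

end Cfsg.Agent.H693.Sch.Baby
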