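import Cfsg.Agent.H693.Sch.Value
import Cfsg.Agent.H816.IMM

/-!
# The nine constituents of the permutation character of the Monster on the axes are rational (helper693)

* `exists_values` : the values of the constituents, `χ g = f / 97239461142009186000 * ∑ u, #{x : c x (g x) = u} * ω u / D`;
* `rat_m` : the Monster has RATIONAL-valued irreducible characters of the nine degrees `degs`.
-/

set_option autoImplicit false

namespace Cfsg.Agent.H693.Sch.Monster

open Cfsg Cfsg.Agent.MonsterX.InstData Cfsg.Agent.Characters.Core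
open Cfsg.Agent.H816 Cfsg.Agent.H816.MEigL Cfsg.Agent.H816.MSch Cfsg.Agent.H816.MDeg Cfsg.Agent.H816.IMEig

universe u

section model

variable {P : Fin 9 → Fin 9 → ℤ} {θ D : ℤ} {ω : Fin 9 → ℤ} {R : Fin 9 → Fin 9 → ℤ} {r : Fin 9 → ℤ} {f : ℕ}

theorem exists_rational (h : Dat MSch.t MSch.k P 2 θ D ω R r 97239461142009186000 f) :
    ∃ χ : ↥M.G → ℂ, IsIrrCharacter ↥M.G χ ∧ χ 1 = f ∧ ∀ g, ∃ q : ℚ, χ g = (q : ℂ) := by
  have := finite_G
  have hE := h.toEig
  have hd := h.toDeg
  rw [← c_b1] at hE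
  refine Sch.exists_rational isCol MSch.tt_eq hE (fun u => ⟨(ω u : ℚ) / (D : ℚ), by push_cast; rfl⟩) ?_
  rw [card_XT]
  exact hd

/-- **The values.** -/
theorem exists_values (h : Dat MSch.t MSch.k P 2 θ D ω R r 97239461142009186000 f) :
    ∃ χ : ↥M.G → ℂ, IsIrrCharacter ↥M.G χ ∧ χ 1 = f ∧ ∀ g : ↥M.G, χ g = (f : ℂ) / 97239461142009186000 *
      ∑ u : Fin 9, (Nat.card {x : XT // c x (g • x) = u} : ℂ) * ((ω u : ℂ) / (D : ℂ)) := by
  classical
  have := finite_G
  have := Fintype.ofFinite XT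
  have hE := h.toEig
  have hd := h.toDeg
  rw [← c_b1] at hE
  obtain ⟨χ, h1, h2, h3⟩ := Sch.exists_values isCol MSch.tt_eq hE (by rw [card_XT]; exact hd)
  refine ⟨χ, h1, h2, fun g => ?_⟩
  rw [h3, card_XT]
  push_cast
  congr 1
  have h4 : ∀ u : Fin 9, (Nat.card {x : XT // c x (g • x) = u} : ℂ) * ((ω u : ℂ) / (D : ℂ)) =
      ∑ x : XT, if c x (g • x) = u then ((ω u : ℂ) / (D : ℂ)) else 0 := by
    intro u
    rw [← Finset.sum_filter, Finset.sum_const, nsmul_eq_mul]
    congr 1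
    rw [Nat.card_eq_fintype_card, Fintype.card_subtype]
  simp only [h4]
  rw [Finset.sum_comm]
  refine Finset.sum_congr rfl fun x _ => ?_
  rw [Finset.sum_ite_eq]
  simp

end model

/-- The nine degrees. -/
def degs : List ℕ := [1, 196883, 842609326, 18538750076, 36173193327999, 1109944460516150, 251098487132187500,
  49609712911192813665, 47377503606648784400]

theorem rat_model {d : ℕ} (hd : d ∈ degs) :
    ∃ χ : ↥M.G → ℂ, IsIrrCharacter ↥M.G χ ∧ χ 1 = (d : ℂ) ∧ ∀ g, ∃ q : ℚ, χ g = (q : ℂ) := by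
  simp only [degs, List.mem_cons, List.not_mem_nil, or_false] at hd
  rcases hd with rfl | rfl | rfl | rfl | rfl | rfl | rfl | rfl | rfl
  · exact exists_rational dat_1
  · exact exists_rational dat_196883
  · exact exists_rational dat_842609326
  · exact exists_rational dat_18538750076
  · exact exists_rational dat_36173193327999
  · exact exists_rational dat_1109944460516150
  · exact exists_rational dat_251098487132187500
  · exact exists_rational dat_49609712911192813665
  · exact exists_rational dat_47377503606648784400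

/-- **Rational-valued irreducible characters of the Monster.** -/
theorem rat_m {S : Type u} [Group S] (h : Spor.IsoM S) {d : ℕ} (hd : d ∈ degs) :
    ∃ χ : IrrCharacter S, (χ : S → ℂ) 1 = (d : ℂ) ∧ charDegree (χ : S → ℂ) = d ∧
      ∀ g : S, ∃ q : ℚ, (χ : S → ℂ) g = (q : ℂ) := by
  obtain ⟨e⟩ := IMM.exists_equiv h
  obtain ⟨χ, hχ, h1, h2⟩ := rat_model hd
  have h3 : (χ ∘ e.toMonoidHom) 1 = (d : ℂ) := by
    rw [Function.comp_apply, map_one, h1]
  exact ⟨⟨χ ∘ e.toMonoidHom, isIrr_comp e.toMonoidHom e.surjective hχ⟩, h3,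
    Cfsg.Agent.Blocks.Basic.charDegree_of_eq h3, fun g => h2 _⟩

/-- Real-valued version. -/
theorem real_m {S : Type u} [Group S] (h : Spor.IsoM S) {d : ℕ} (hd : d ∈ degs) :
    ∃ χ : IrrCharacter S, (χ : S → ℂ) 1 = (d : ℂ) ∧ charDegree (χ : S → ℂ) = d ∧
      ∀ g : S, ((χ : S → ℂ) g).im = 0 := by
  obtain ⟨χ, h1, h2, h3⟩ := rat_m h hd
  refine ⟨χ, h1, h2, fun g => ?_⟩
  obtain ⟨q, hq⟩ := h3 g
  rw [hq]
  exact Complex.ratCast_im q

end Cfsg.Agent.H693.Sch.Monster
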